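import Groth.Agent.Ega4late.H530.StalkSection

/-!
# Zariski's main property at an isolated point of (closure of a point) ∩ fibre
-/

set_option autoImplicit false

universe u

open CategoryTheory CategoryTheory.Limits AlgebraicGeometry TopologicalSpace

namespace Groth.Agent.Ega4late.H530.IsolatedZMP

/-- Let `p : P ⟶ X` be locally of finite type, `γ`, `z` points of an affine open `P₀` of `P` lying over
an affine open `W₂` of `X`. If `z` is isolated in `closure {γ} ∩ p ⁻¹ {p z}`, then for any ideal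
`I` contained in the prime of `z`, such that `V(I) ⊆ closure {γ}`, the `Γ(X, W₂)`-algebra
`Γ(P, P₀) / I` satisfies Zariski's main property at the prime of `z`. -/
theorem zariskisMainProperty_of_isolated {X P : Scheme.{u}} (p : P ⟶ X) [LocallyOfFiniteType p]
    (z : P) (Z : Set P) (W₂ : X.Opens) (hW₂ : IsAffineOpen W₂)
    (P₀ : P.Opens) (hP₀ : IsAffineOpen P₀) (hle : P₀ ≤ p ⁻¹ᵁ W₂) (hz : z ∈ P₀)
    (hiso : ∃ O : P.Opens, (O : Set P) ∩ Z ∩ p ⁻¹' {p z} = {z})
    (I : Ideal Γ(P, P₀))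
    (hIZ : ∀ c : PrimeSpectrum Γ(P, P₀), I ≤ c.asIdeal → hP₀.fromSpec c ∈ Z)
    (q : PrimeSpectrum (Γ(P, P₀) ⧸ I))
    (hq : q.comap (Ideal.Quotient.mk I) = hP₀.primeIdealOf ⟨z, hz⟩) :
    letI : Algebra Γ(X, W₂) (Γ(P, P₀) ⧸ I) :=
      ((Ideal.Quotient.mk I).comp (p.appLE W₂ P₀ hle).hom).toAlgebra
    Algebra.ZariskisMainProperty Γ(X, W₂) q.asIdeal := by
  let _ : Algebra Γ(X, W₂) (Γ(P, P₀) ⧸ I) :=
      ((Ideal.Quotient.mk I).comp (p.appLE W₂ P₀ hle).hom).toAlgebra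
  have hft : Algebra.FiniteType Γ(X, W₂) (Γ(P, P₀) ⧸ I) := by
    have h1 : (p.appLE W₂ P₀ hle).hom.FiniteType := p.finiteType_appLE hW₂ hP₀ hle
    exact RingHom.FiniteType.comp_surjective (g := Ideal.Quotient.mk I) h1
      Ideal.Quotient.mk_surjective
  have hfib : ∀ c : PrimeSpectrum (Γ(P, P₀) ⧸ I),
      p (hP₀.fromSpec (c.comap (Ideal.Quotient.mk I))) =
        hW₂.fromSpec (c.comap (algebraMap Γ(X, W₂) (Γ(P, P₀) ⧸ I))) := by
    intro c
    exact (congr($(IsAffineOpen.SpecMap_appLE_fromSpec p hW₂ hP₀ hle)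
      (c.comap (Ideal.Quotient.mk I)))).symm
  obtain ⟨O, hO⟩ := hiso
  suffices Algebra.QuasiFiniteAt Γ(X, W₂) q.asIdeal from .of_finiteType _
  refine Algebra.QuasiFiniteAt.of_isOpen_singleton_fiber q ?_
  have hcont : Continuous fun c : PrimeSpectrum (Γ(P, P₀) ⧸ I) ↦
      hP₀.fromSpec (c.comap (Ideal.Quotient.mk I)) :=
    hP₀.fromSpec.continuous.comp (PrimeSpectrum.continuous_comap _)
  have hfz : hP₀.fromSpec (q.comap (Ideal.Quotient.mk I)) = z := by
    rw [hq]; exact hP₀.fromSpec_primeIdealOf ⟨z, hz⟩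
  have hOz : z ∈ (O : Set P) := (hO.ge rfl).1.1
  rw [isOpen_induced_iff]
  refine ⟨_, (O.isOpen.preimage hcont), ?_⟩
  ext ⟨c, hc⟩
  simp only [Set.mem_preimage, Set.mem_singleton_iff]
  refine ⟨fun h ↦ ?_, fun h ↦ ?_⟩
  · have hc' : c.comap (algebraMap Γ(X, W₂) (Γ(P, P₀) ⧸ I)) =
        q.comap (algebraMap Γ(X, W₂) (Γ(P, P₀) ⧸ I)) := hc
    have h1 : hP₀.fromSpec (c.comap (Ideal.Quotient.mk I)) = z := by
      refine hO.le ⟨⟨h, hIZ _ ?_⟩, ?_⟩
      · intro a ha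
        change Ideal.Quotient.mk I a ∈ c.asIdeal
        rw [Ideal.Quotient.eq_zero_iff_mem.mpr ha]
        exact zero_mem _
      · rw [Set.mem_preimage, Set.mem_singleton_iff, hfib c, hc', ← hfib q, hfz]
    have h2 : c.comap (Ideal.Quotient.mk I) = q.comap (Ideal.Quotient.mk I) :=
      hP₀.fromSpec.isOpenEmbedding.injective (h1.trans hfz.symm)
    exact Subtype.ext (PrimeSpectrum.comap_injective_of_surjective _
      Ideal.Quotient.mk_surjective h2)
  · obtain rfl : c = q := congrArg Subtype.val h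
    rw [hfz]
    exact hOz

end Groth.Agent.Ega4late.H530.IsolatedZMP
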