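import Mathlib.RingTheory.ZariskisMainTheorem
import Mathlib.RingTheory.IntegralClosure.IntegrallyClosed
import Mathlib.RingTheory.Localization.FractionRing
import Mathlib.RingTheory.LocalRing.RingHom.Basic

/-!
# Ring core of the original form of Zariski's Main Theorem

`A` an integrally closed domain, `K` a domain containing `A` with "the same fraction field"
(every element of `K` is a fraction of elements of `A`).  Elements of `K` which come from a finite
type `R`-algebra `B` (with `R → A`) satisfying Zariski's main property at a prime `q` lie in `A`.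
-/

set_option autoImplicit false

namespace Groth.Agent.Ega4late.H530.NormalZMT

/-- If every element of `K` is a fraction of elements of the integrally closed domain `A`, then the
elements of `K` integral over `A` lie in `A`. -/
theorem exists_eq_of_isIntegralElem {A K : Type*} [CommRing A] [IsDomain A] [IsIntegrallyClosed A]
    [CommRing K] [IsDomain K] (α : A →+* K) (hinj : Function.Injective α)
    (hfrac : ∀ k : K, ∃ a s : A, s ≠ 0 ∧ α s * k = α a) {k : K} (hk : α.IsIntegralElem k) :
    ∃ a, α a = k := by
  let L := FractionRing K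
  let _ : Algebra A K := α.toAlgebra
  have hAL : Function.Injective (algebraMap A L) := by
    rw [IsScalarTower.algebraMap_eq A K L]
    exact (IsFractionRing.injective K L).comp hinj
  have : FaithfulSMul A L := (faithfulSMul_iff_algebraMap_injective A L).mpr hAL
  have : IsFractionRing A L := by
    refine IsFractionRing.of_field A L fun z ↦ ?_
    obtain ⟨x, y, hy, rfl⟩ := IsFractionRing.div_surjective (A := K) z
    obtain ⟨a, s, hs, has⟩ := hfrac x
    obtain ⟨b, t, ht, hbt⟩ := hfrac y
    have hy0 : algebraMap K L y ≠ 0 := by
      simpa using nonZeroDivisors.ne_zero hy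
    have hs0 : algebraMap A L s ≠ 0 := fun h ↦ hs (hAL (by rw [h, map_zero]))
    have ht0 : algebraMap A L t ≠ 0 := fun h ↦ ht (hAL (by rw [h, map_zero]))
    have e1 : algebraMap A L s * algebraMap K L x = algebraMap A L a := by
      rw [IsScalarTower.algebraMap_apply A K L, IsScalarTower.algebraMap_apply A K L a, ← map_mul]
      exact congrArg _ has
    have e2 : algebraMap A L t * algebraMap K L y = algebraMap A L b := by
      rw [IsScalarTower.algebraMap_apply A K L, IsScalarTower.algebraMap_apply A K L b, ← map_mul]
      exact congrArg _ hbt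
    refine ⟨a * t, s * b, ?_⟩
    rw [map_mul, map_mul, ← e1, ← e2]
    rw [div_eq_div_iff hy0 (mul_ne_zero hs0 (mul_ne_zero ht0 hy0))]
    ring
  have hkint : IsIntegral A (algebraMap K L k) := by
    have : IsIntegral A k := hk
    exact this.algebraMap
  obtain ⟨y, hy⟩ := (isIntegrallyClosed_iff L).mp ‹_› hkint
  refine ⟨y, IsFractionRing.injective K L ?_⟩
  rw [← hy, IsScalarTower.algebraMap_apply A K L]
  rfl

/-- Ring core of Zariski's main theorem over a normal local ring. `R → A` and `R → B` with `B` an
`R`-algebra satisfying Zariski's main property at `q` (for instance `B` of finite type over `R` and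
quasi-finite at `q`), `β : B → K` compatible, and suppose that an element `a` of `A` which has the
same image in `K` as an element of `B` outside `q` is a unit. Then all elements of `B` land
in the image of `A`. -/
theorem exists_eq_of_zariskisMainProperty {R B A K : Type*} [CommRing R] [CommRing B] [Algebra R B]
    [CommRing A] [IsDomain A] [IsIntegrallyClosed A]
    [CommRing K] [IsDomain K] (α : A →+* K) (hinj : Function.Injective α)
    (hfrac : ∀ k : K, ∃ a s : A, s ≠ 0 ∧ α s * k = α a)
    (ψ : R →+* A) (β : B →+* K) (comm : α.comp ψ = β.comp (algebraMap R B))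
    (q : Ideal B) (H : Algebra.ZariskisMainProperty R q)
    (hunit : ∀ (a : A) (b : B), b ∉ q → α a = β b → IsUnit a) (b : B) :
    ∃ a, α a = β b := by
  have key : ∀ b : B, IsIntegral R b → ∃ a, α a = β b := by
    rintro b ⟨p, hp, hpb⟩
    refine exists_eq_of_isIntegralElem α hinj hfrac ⟨p.map ψ, hp.map ψ, ?_⟩
    rw [Polynomial.eval₂_map, comm, ← Polynomial.hom_eval₂, hpb, map_zero]
  obtain ⟨r, hrq, hr, h⟩ := Algebra.zariskisMainProperty_iff.mp H
  obtain ⟨m, hm⟩ := h b
  obtain ⟨r₀, hr₀⟩ := key r hr
  obtain ⟨c, hc⟩ := key _ hm
  obtain ⟨u, rfl⟩ := hunit r₀ r hrq hr₀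
  refine ⟨(↑(u⁻¹) : A) ^ m * c, ?_⟩
  rw [map_mul, hc, map_mul, map_pow, map_pow, ← hr₀, ← mul_assoc, ← mul_pow, ← map_mul]
  simp

end Groth.Agent.Ega4late.H530.NormalZMT
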