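import Groth.Agent.Ega4late.H530.IsolatedZMP

/-!
# The retraction `𝒪_{P, z} → 𝒪_{X, p z}`
-/

set_option autoImplicit false

universe u

open CategoryTheory CategoryTheory.Limits AlgebraicGeometry TopologicalSpace

namespace Groth.Agent.Ega4late.H530.Retraction

open StalkSection IsolatedZMP NormalZMT

variable {X P : Scheme.{u}} (p : P ⟶ X) {U : X.Opens} (g : (U : Scheme.{u}) ⟶ P)
  (hg : g ≫ p = U.ι) (W₁ : X.Opens) [IsIntegral (W₁ : Scheme.{u})] (η : (U : Scheme.{u}))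
  (hη : W₁.ι (genericPoint (W₁ : Scheme.{u})) = U.ι η) (z : P)

include hg in
theorem alpha_eq (hηz : g η ⤳ z) :
    p.stalkMap z ≫ P.presheaf.stalkSpecializes hηz ≫ g.stalkMap η =
      X.presheaf.stalkSpecializes (p.base.hom.map_specializes hηz) ≫ (g ≫ p).stalkMap η ∧
    IsIso ((g ≫ p).stalkMap η) := by
  have : IsOpenImmersion (g ≫ p) := by rw [hg]; infer_instance
  refine ⟨?_, inferInstance⟩
  rw [Scheme.Hom.stalkMap_comp, Scheme.Hom.stalkSpecializes_stalkMap_assoc]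

include hg hη in
theorem alpha_fraction (hz : p z ∈ W₁) (hηz : g η ⤳ z) :
    Function.Injective (p.stalkMap z ≫ P.presheaf.stalkSpecializes hηz ≫ g.stalkMap η).hom ∧
      ∀ k : (U : Scheme.{u}).presheaf.stalk η, ∃ a s : X.presheaf.stalk (p z), s ≠ 0 ∧
        (p.stalkMap z ≫ P.presheaf.stalkSpecializes hηz ≫ g.stalkMap η).hom s * k =
        (p.stalkMap z ≫ P.presheaf.stalkSpecializes hηz ≫ g.stalkMap η).hom a := by
  obtain ⟨e, hi⟩ := alpha_eq p g hg η z hηz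
  rw [e]
  have hη' : W₁.ι (genericPoint (W₁ : Scheme.{u})) = (g ≫ p) η := by rw [hη, hg]
  obtain ⟨h1, h2⟩ := stalkSpecializes_fraction W₁ (p z) hz ((g ≫ p) η) hη'
    (p.base.hom.map_specializes hηz)
  have hb : Function.Bijective ((g ≫ p).stalkMap η).hom := ConcreteCategory.bijective_of_isIso _
  refine ⟨?_, fun k ↦ ?_⟩
  · exact fun a b hab ↦ h1 (hb.1 hab)
  · obtain ⟨k', rfl⟩ := hb.2 k
    obtain ⟨a, s, hs, has⟩ := h2 k'
    refine ⟨a, s, hs, ?_⟩
    have := congrArg ((g ≫ p).stalkMap η).hom has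
    rw [map_mul] at this
    exact this

include hη in
theorem isField_stalk : IsField ((U : Scheme.{u}).presheaf.stalk η) := by
  have hU : IsIso (U.ι.stalkMap η) := inferInstance
  have h1 : IsField (X.presheaf.stalk (U.ι η)) := by
    rw [← hη]
    have h2 : IsField ((W₁ : Scheme.{u}).presheaf.stalk (genericPoint (W₁ : Scheme.{u}))) :=
      Field.toIsField (W₁ : Scheme.{u}).functionField
    exact ((asIso (W₁.ι.stalkMap (genericPoint (W₁ : Scheme.{u})))).commRingCatIsoToRingEquiv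
      ).toMulEquiv.isField h2
  exact (asIso (U.ι.stalkMap η)).commRingCatIsoToRingEquiv.symm.toMulEquiv.isField h1

include hg hη in
theorem exists_stalk_eq [LocallyOfFiniteType p] (hz : p z ∈ W₁) (hηz : g η ⤳ z)
    (hx : IsIntegrallyClosed (X.presheaf.stalk (p z)))
    (hiso : ∃ O : P.Opens, (O : Set P) ∩ closure {g η} ∩ p ⁻¹' {p z} = {z})
    (d : P.presheaf.stalk z) :
    ∃ a : X.presheaf.stalk (p z),
      (p.stalkMap z ≫ P.presheaf.stalkSpecializes hηz ≫ g.stalkMap η).hom a =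
      (P.presheaf.stalkSpecializes hηz ≫ g.stalkMap η).hom d := by
  obtain ⟨_, ⟨W₂, hW₂, rfl⟩, hzW₂, -⟩ :=
    X.isBasis_affineOpens.exists_subset_of_mem_open (Set.mem_univ (p z)) isOpen_univ
  obtain ⟨_, ⟨P₀, hP₀, rfl⟩, hzP₀, hle : P₀ ≤ p ⁻¹ᵁ W₂⟩ :=
    P.isBasis_affineOpens.exists_subset_of_mem_open (show z ∈ p ⁻¹ᵁ W₂ from hzW₂)
      (p ⁻¹ᵁ W₂).isOpen
  have hγ : g η ∈ P₀ := hηz.mem_open P₀.isOpen hzP₀
  obtain ⟨hinj, hfrac⟩ := alpha_fraction p g hg W₁ η hη z hz hηz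
  have hK := isField_stalk W₁ η hη
  have hKd : IsDomain ((U : Scheme.{u}).presheaf.stalk η) := hK.isDomain
  have hAd : IsDomain (X.presheaf.stalk (p z)) := hinj.isDomain
  generalize hβ : (P.presheaf.stalkSpecializes hηz ≫ g.stalkMap η) = β at hinj hfrac ⊢
  have hψ : X.presheaf.germ W₂ (p z) hzW₂ ≫ p.stalkMap z =
      p.appLE W₂ P₀ hle ≫ P.presheaf.germ P₀ z hzP₀ := by
    rw [Scheme.Hom.germ_stalkMap, Scheme.Hom.appLE, Category.assoc, TopCat.Presheaf.germ_res]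
  have hχ : P.presheaf.germ P₀ z hzP₀ ≫ β = P.presheaf.germ P₀ (g η) hγ ≫ g.stalkMap η := by
    rw [← hβ, TopCat.Presheaf.germ_stalkSpecializes_assoc]
  let I : Ideal Γ(P, P₀) := (hP₀.primeIdealOf ⟨g η, hγ⟩).asIdeal
  have hmemI : ∀ f : Γ(P, P₀), f ∈ I ↔ ¬ IsUnit (P.presheaf.germ P₀ (g η) hγ f) := by
    intro f
    change f ∈ (hP₀.primeIdealOf ⟨g η, hγ⟩).asIdeal ↔ _
    rw [hP₀.primeIdealOf_eq_map_closedPoint]
    rfl
  have hmemz : ∀ f : Γ(P, P₀), f ∈ (hP₀.primeIdealOf ⟨z, hzP₀⟩).asIdeal ↔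
      ¬ IsUnit (P.presheaf.germ P₀ z hzP₀ f) := by
    intro f
    rw [hP₀.primeIdealOf_eq_map_closedPoint]
    rfl
  have hIχ : ∀ f ∈ I, (P.presheaf.germ P₀ z hzP₀ ≫ β).hom f = 0 := by
    intro f hf
    rw [hχ]
    by_contra h
    refine (hmemI f).mp hf ?_
    obtain ⟨k, hk⟩ := hK.mul_inv_cancel h
    exact isUnit_of_map_unit (g.stalkMap η).hom _ (IsUnit.of_mul_eq_one k hk)
  have hIz : I ≤ (hP₀.primeIdealOf ⟨z, hzP₀⟩).asIdeal := by
    intro f hf
    rw [hmemz]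
    intro hu
    refine (hmemI f).mp hf ?_
    have := hu.map (P.presheaf.stalkSpecializes hηz).hom
    have e : (P.presheaf.stalkSpecializes hηz).hom (P.presheaf.germ P₀ z hzP₀ f) =
        P.presheaf.germ P₀ (g η) hγ f :=
      TopCat.Presheaf.germ_stalkSpecializes_apply ..
    rwa [e] at this
  have hIZ : ∀ c : PrimeSpectrum Γ(P, P₀), I ≤ c.asIdeal → hP₀.fromSpec c ∈ closure {g η} := by
    intro c hc
    have h1 : hP₀.primeIdealOf ⟨g η, hγ⟩ ⤳ c :=
      (PrimeSpectrum.le_iff_specializes (hP₀.primeIdealOf ⟨g η, hγ⟩) c).mp hc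
    have h2 := h1.map hP₀.fromSpec.continuous
    rw [hP₀.fromSpec_primeIdealOf ⟨g η, hγ⟩] at h2
    exact h2.mem_closure
  obtain ⟨q, hq⟩ : ∃ q : PrimeSpectrum (Γ(P, P₀) ⧸ I),
      q.comap (Ideal.Quotient.mk I) = hP₀.primeIdealOf ⟨z, hzP₀⟩ := by
    have := range_comap_of_surjective _ (Ideal.Quotient.mk I) Ideal.Quotient.mk_surjective
    rw [Ideal.mk_ker] at this
    exact this.ge hIz
  have hZMP := zariskisMainProperty_of_isolated p z (closure {g η}) W₂ hW₂ P₀ hP₀ hle hzP₀ hiso I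
    hIZ q hq
  let _ : Algebra Γ(X, W₂) (Γ(P, P₀) ⧸ I) :=
      ((Ideal.Quotient.mk I).comp (p.appLE W₂ P₀ hle).hom).toAlgebra
  have hlocal : ∀ (a : X.presheaf.stalk (p z)) (b : Γ(P, P₀)),
      b ∉ (hP₀.primeIdealOf ⟨z, hzP₀⟩).asIdeal →
      (p.stalkMap z ≫ β).hom a = (P.presheaf.germ P₀ z hzP₀ ≫ β).hom b → IsUnit a := by
    intro a b hb hab
    rw [hmemz, not_not] at hb
    have h1 : β.hom ((p.stalkMap z).hom a - P.presheaf.germ P₀ z hzP₀ b) = 0 := by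
      rw [map_sub, sub_eq_zero]
      exact hab
    have h2 : (p.stalkMap z).hom a - P.presheaf.germ P₀ z hzP₀ b ∈
        IsLocalRing.maximalIdeal (P.presheaf.stalk z) := by
      rw [IsLocalRing.mem_maximalIdeal, mem_nonunits_iff]
      intro h
      have := h.map β.hom
      rw [h1] at this
      exact not_isUnit_zero this
    have h3 : IsUnit ((p.stalkMap z).hom a) := by
      by_contra h
      have h4 : (p.stalkMap z).hom a ∈ IsLocalRing.maximalIdeal (P.presheaf.stalk z) :=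
        (IsLocalRing.mem_maximalIdeal _).mpr h
      have h5 := (Submodule.sub_mem_iff_right _ h4).mp h2
      exact (IsLocalRing.mem_maximalIdeal _).mp h5 hb
    exact isUnit_of_map_unit (p.stalkMap z).hom _ h3
  have key : ∀ b : Γ(P, P₀), ∃ a, (p.stalkMap z ≫ β).hom a =
      (P.presheaf.germ P₀ z hzP₀ ≫ β).hom b := by
    intro b
    refine exists_eq_of_zariskisMainProperty (p.stalkMap z ≫ β).hom hinj hfrac
      (X.presheaf.germ W₂ (p z) hzW₂).hom
      (Ideal.Quotient.lift I (P.presheaf.germ P₀ z hzP₀ ≫ β).hom hIχ) ?_ q.asIdeal hZMP ?_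
      (Ideal.Quotient.mk I b)
    · ext r
      have := congr($hψ r)
      exact congrArg β.hom this
    · intro a b' hb' hab
      obtain ⟨b, rfl⟩ := Ideal.Quotient.mk_surjective b'
      refine hlocal a b ?_ hab
      rw [← hq]
      exact hb'
  let _ := P.presheaf.algebra_section_stalk ⟨z, hzP₀⟩
  have hloc := hP₀.isLocalization_stalk ⟨z, hzP₀⟩
  obtain ⟨⟨b, t⟩, hbt⟩ := IsLocalization.surj
    (hP₀.primeIdealOf ⟨z, hzP₀⟩).asIdeal.primeCompl d
  obtain ⟨a, ha⟩ := key b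
  obtain ⟨c, hc⟩ := key t
  obtain ⟨c, rfl⟩ := hlocal c t t.2 hc
  have ht : β.hom d * β.hom (P.presheaf.germ P₀ z hzP₀ t) = β.hom (P.presheaf.germ P₀ z hzP₀ b) := by
    rw [← map_mul]
    exact congrArg β.hom hbt
  refine ⟨a * ↑(c⁻¹), ?_⟩
  rw [map_mul, ha]
  have h6 : (P.presheaf.germ P₀ z hzP₀ ≫ β).hom b =
    β.hom d * (P.presheaf.germ P₀ z hzP₀ ≫ β).hom t := ht.symm
  rw [h6, ← hc, mul_assoc, ← map_mul, Units.mul_inv, map_one, mul_one]

include hg hη in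
/-- The retraction of `𝒪_{X, p z} → 𝒪_{P, z}` through which `𝒪_{P, z} → 𝒪_{P, g η} → 𝒪_{U, η}`
factors. -/
theorem exists_retraction [LocallyOfFiniteType p] (hz : p z ∈ W₁) (hηz : g η ⤳ z)
    (hx : IsIntegrallyClosed (X.presheaf.stalk (p z)))
    (hiso : ∃ O : P.Opens, (O : Set P) ∩ closure {g η} ∩ p ⁻¹' {p z} = {z}) :
    ∃ ρ : P.presheaf.stalk z ⟶ X.presheaf.stalk (p z), p.stalkMap z ≫ ρ = 𝟙 _ ∧
      ρ ≫ p.stalkMap z ≫ P.presheaf.stalkSpecializes hηz ≫ g.stalkMap η =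
        P.presheaf.stalkSpecializes hηz ≫ g.stalkMap η := by
  have hinj := (alpha_fraction p g hg W₁ η hη z hz hηz).1
  have hrange := exists_stalk_eq p g hg W₁ η hη z hz hηz hx hiso
  generalize P.presheaf.stalkSpecializes hηz ≫ g.stalkMap η = β at *
  let e : X.presheaf.stalk (p z) ≃+* (p.stalkMap z ≫ β).hom.range :=
    RingEquiv.ofBijective (p.stalkMap z ≫ β).hom.rangeRestrict
      ⟨fun a b h ↦ hinj (congrArg Subtype.val h), (p.stalkMap z ≫ β).hom.rangeRestrict_surjective⟩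
  let ρ₀ : P.presheaf.stalk z →+* X.presheaf.stalk (p z) :=
    e.symm.toRingHom.comp (β.hom.codRestrict (p.stalkMap z ≫ β).hom.range hrange)
  have hρ : ∀ d, (p.stalkMap z ≫ β).hom (ρ₀ d) = β.hom d := fun d ↦
    congrArg Subtype.val (e.apply_symm_apply ⟨β.hom d, hrange d⟩)
  refine ⟨CommRingCat.ofHom ρ₀, ?_, ?_⟩
  · ext a
    refine hinj ?_
    exact hρ ((p.stalkMap z).hom a)
  · ext d
    exact hρ d

end Groth.Agent.Ega4late.H530.Retraction
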