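import Groth.Agent.Ega4late.H530.Retraction
import Mathlib.AlgebraicGeometry.SpreadingOut
import Mathlib.AlgebraicGeometry.Morphisms.Separated

/-!
# Extension of sections through a normal point over which the closure has an isolated point

This is the original form of Zariski's Main Theorem (EGA IV 20.4.x), for a section `g : U ⟶ P`
of a morphism `p : P ⟶ X` locally of finite type.
-/

set_option autoImplicit false

universe u

open CategoryTheory CategoryTheory.Limits AlgebraicGeometry TopologicalSpace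

namespace Groth.Agent.Ega4late.H530.SectionExtend

open Retraction

/-- A morphism `Spec 𝒪_{X, p z} ⟶ P` sending the closed point to `z`, a section of `p`, and
agreeing with `g` at the generic point. -/
theorem exists_stalk_section {X P : Scheme.{u}} (p : P ⟶ X) [LocallyOfFiniteType p]
    {U : X.Opens} (g : (U : Scheme.{u}) ⟶ P)
    (hg : g ≫ p = U.ι) (W₁ : X.Opens) [IsIntegral (W₁ : Scheme.{u})] (η : (U : Scheme.{u}))
    (hη : W₁.ι (genericPoint (W₁ : Scheme.{u})) = U.ι η) (z : P)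
    (hz : p z ∈ W₁) (hηz : g η ⤳ z)
    (hx : IsIntegrallyClosed (X.presheaf.stalk (p z)))
    (hiso : ∃ O : P.Opens, (O : Set P) ∩ closure {g η} ∩ p ⁻¹' {p z} = {z}) :
    ∃ (s : Spec (X.presheaf.stalk (p z)) ⟶ P)
      (α : Spec ((U : Scheme.{u}).presheaf.stalk η) ⟶ Spec (X.presheaf.stalk (p z))),
      s ≫ p = X.fromSpecStalk (p z) ∧ s (IsLocalRing.closedPoint _) = z ∧
      α ≫ X.fromSpecStalk (p z) = (U : Scheme.{u}).fromSpecStalk η ≫ U.ι ∧
      α ≫ s = (U : Scheme.{u}).fromSpecStalk η ≫ g := by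
  obtain ⟨ρ, hρ₁, hρ₂⟩ := exists_retraction p g hg W₁ η hη z hz hηz hx hiso
  have h1 : Spec.map (P.presheaf.stalkSpecializes hηz ≫ g.stalkMap η) ≫ P.fromSpecStalk z =
      (U : Scheme.{u}).fromSpecStalk η ≫ g := by
    rw [Spec.map_comp, Category.assoc, Scheme.SpecMap_stalkSpecializes_fromSpecStalk,
      Scheme.SpecMap_stalkMap_fromSpecStalk]
  have h2 : Spec.map (p.stalkMap z ≫ P.presheaf.stalkSpecializes hηz ≫ g.stalkMap η) ≫
      Spec.map ρ ≫ P.fromSpecStalk z = (U : Scheme.{u}).fromSpecStalk η ≫ g := by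
    rw [← Spec.map_comp_assoc, hρ₂, h1]
  have h3 : (Spec.map ρ ≫ P.fromSpecStalk z) ≫ p = X.fromSpecStalk (p z) := by
    rw [Category.assoc, ← Scheme.SpecMap_stalkMap_fromSpecStalk, ← Spec.map_comp_assoc, hρ₁,
      Spec.map_id, Category.id_comp]
  refine ⟨Spec.map ρ ≫ P.fromSpecStalk z,
    Spec.map (p.stalkMap z ≫ P.presheaf.stalkSpecializes hηz ≫ g.stalkMap η), h3, ?_, ?_, h2⟩
  · have hloc : IsLocalHom ρ.hom := by
      constructor
      intro d hd
      by_contra hd'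
      have e1 : ρ.hom ((p.stalkMap z).hom (ρ.hom d)) = ρ.hom d := congr($hρ₁ (ρ.hom d))
      have e2 : IsUnit ((p.stalkMap z).hom (ρ.hom d)) := hd.map _
      have e3 : ρ.hom (d - (p.stalkMap z).hom (ρ.hom d)) = 0 := by rw [map_sub, e1, sub_self]
      have e4 : d - (p.stalkMap z).hom (ρ.hom d) ∈
          IsLocalRing.maximalIdeal (P.presheaf.stalk z) := by
        rw [IsLocalRing.mem_maximalIdeal, mem_nonunits_iff]
        intro h
        have := h.map ρ.hom
        rw [e3] at this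
        exact not_isUnit_zero this
      have e5 : d ∈ IsLocalRing.maximalIdeal (P.presheaf.stalk z) :=
        (IsLocalRing.mem_maximalIdeal _).mpr hd'
      exact (IsLocalRing.mem_maximalIdeal _).mp ((Submodule.sub_mem_iff_right _ e5).mp e4) e2
    have : Spec.map ρ (IsLocalRing.closedPoint _) = IsLocalRing.closedPoint _ :=
      IsLocalRing.comap_closedPoint ρ.hom
    change (P.fromSpecStalk z) (Spec.map ρ (IsLocalRing.closedPoint _)) = z
    rw [this]
    exact Scheme.fromSpecStalk_closedPoint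
  · rw [← h3, ← Category.assoc, h2, Category.assoc, hg]

/-- Spreading out of the previous section to a neighbourhood of `p z`. -/
theorem exists_extension_generic {X P : Scheme.{u}} (p : P ⟶ X) [LocallyOfFiniteType p]
    {U : X.Opens} (g : (U : Scheme.{u}) ⟶ P)
    (hg : g ≫ p = U.ι) (W₁ : X.Opens) [IsIntegral (W₁ : Scheme.{u})] (η : (U : Scheme.{u}))
    (hη : W₁.ι (genericPoint (W₁ : Scheme.{u})) = U.ι η) (z : P)
    (hz : p z ∈ W₁) (hηz : g η ⤳ z)
    (hx : IsIntegrallyClosed (X.presheaf.stalk (p z)))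
    (hiso : ∃ O : P.Opens, (O : Set P) ∩ closure {g η} ∩ p ⁻¹' {p z} = {z}) :
    ∃ (V : X.Opens) (hV : p z ∈ V) (v : (V : Scheme.{u}) ⟶ P)
      (α : Spec ((U : Scheme.{u}).presheaf.stalk η) ⟶ (V : Scheme.{u})),
      V ≤ W₁ ∧ v ≫ p = V.ι ∧ v ⟨p z, hV⟩ = z ∧
      α ≫ V.ι = (U : Scheme.{u}).fromSpecStalk η ≫ U.ι ∧
      α ≫ v = (U : Scheme.{u}).fromSpecStalk η ≫ g := by
  obtain ⟨s, α, hs, hsz, hα, hαs⟩ := exists_stalk_section p g hg W₁ η hη z hz hηz hx hiso
  have hinj : X.IsGermInjectiveAt (p z) := by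
    obtain ⟨x, hx⟩ : ∃ x : (W₁ : Scheme.{u}), W₁.ι x = p z := ⟨⟨p z, hz⟩, rfl⟩
    rw [← hx]
    infer_instance
  obtain ⟨V, hV, f, hf, hfp⟩ := spread_out_of_isGermInjective' (𝟙 X) p s
    (by rw [hs, Category.comp_id])
  rw [Category.comp_id] at hfp
  have hVW : p z ∈ V ⊓ W₁ := ⟨hV, hz⟩
  refine ⟨V ⊓ W₁, hVW, X.homOfLE inf_le_left ≫ f,
    α ≫ (V ⊓ W₁).fromSpecStalkOfMem (p z) hVW, inf_le_right, ?_, ?_, ?_, ?_⟩
  · rw [Category.assoc, hfp, Scheme.homOfLE_ι]
  · have h1 : f (V.fromSpecStalkOfMem (p z) hV (IsLocalRing.closedPoint _)) = z :=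
      (congr($hf.symm (IsLocalRing.closedPoint _))).trans hsz
    have h2 : V.fromSpecStalkOfMem (p z) hV (IsLocalRing.closedPoint _) = ⟨p z, hV⟩ := by
      apply V.ι.isOpenEmbedding.injective
      refine (congr($(Scheme.Opens.fromSpecStalkOfMem_ι V (p z) hV)
        (IsLocalRing.closedPoint _))).trans ?_
      exact Scheme.fromSpecStalk_closedPoint
    rw [h2] at h1
    exact (congrArg f (Scheme.homOfLE_apply' (X := X) (inf_le_left : V ⊓ W₁ ≤ V) (p z) hVW)).trans h1
  · rw [Category.assoc, Scheme.Opens.fromSpecStalkOfMem_ι, hα]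
  · rw [Category.assoc]
    have : (V ⊓ W₁).fromSpecStalkOfMem (p z) hVW ≫ X.homOfLE inf_le_left =
        V.fromSpecStalkOfMem (p z) hV := by
      rw [← cancel_mono V.ι, Category.assoc, Scheme.homOfLE_ι, Scheme.Opens.fromSpecStalkOfMem_ι,
        Scheme.Opens.fromSpecStalkOfMem_ι]
    rw [reassoc_of% this, ← hf, hαs]

/-- **Zariski's Main Theorem, original form, for sections**: a section of a separated morphism
locally of finite type over a dense open subset extends through a normal point (with an integral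
neighbourhood) over which the closure of its image has an isolated point. -/
theorem exists_extension {X P : Scheme.{u}} (p : P ⟶ X) [LocallyOfFiniteType p] [IsSeparated p]
    {U : X.Opens} (hU : Dense (U : Set X)) (g : (U : Scheme.{u}) ⟶ P)
    (hg : g ≫ p = U.ι) (W₁ : X.Opens) [IsIntegral (W₁ : Scheme.{u})] (z : P)
    (hz : p z ∈ W₁) (hx : IsIntegrallyClosed (X.presheaf.stalk (p z)))
    (hzΓ : z ∈ closure (Set.range g))
    (hiso : ∃ O : P.Opens, (O : Set P) ∩ closure (Set.range g) ∩ p ⁻¹' {p z} = {z}) :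
    ∃ (V : X.Opens) (hV : p z ∈ V) (v : (V : Scheme.{u}) ⟶ P),
      v ≫ p = V.ι ∧ v ⟨p z, hV⟩ = z ∧
      X.homOfLE (inf_le_right : U ⊓ V ≤ V) ≫ v = X.homOfLE (inf_le_left : U ⊓ V ≤ U) ≫ g := by
  have hspec : ∀ y : X, y ∈ W₁ → W₁.ι (genericPoint (W₁ : Scheme.{u})) ⤳ y := by
    intro y hy
    have h1 : genericPoint (W₁ : Scheme.{u}) ⤳ (⟨y, hy⟩ : (W₁ : Scheme.{u})) :=
      (genericPoint_spec (W₁ : Scheme.{u})).specializes trivial
    exact h1.map W₁.ι.continuous
  have hηU : W₁.ι (genericPoint (W₁ : Scheme.{u})) ∈ U := by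
    obtain ⟨y, hyW, hyU⟩ := hU.inter_open_nonempty W₁ W₁.isOpen ⟨p z, hz⟩
    exact (hspec y hyW).mem_open U.isOpen hyU
  obtain ⟨η, hη⟩ : ∃ η : (U : Scheme.{u}), W₁.ι (genericPoint (W₁ : Scheme.{u})) = U.ι η :=
    ⟨⟨_, hηU⟩, rfl⟩
  have hηspec : ∀ y : (U : Scheme.{u}), U.ι y ∈ W₁ → η ⤳ y := by
    intro y hy
    rw [← U.ι.isOpenEmbedding.toIsInducing.specializes_iff]
    exact (specializes_of_eq hη.symm).trans (hspec _ hy)
  have hηz : g η ⤳ z := by
    rw [specializes_iff_mem_closure]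
    have h1 : z ∈ closure (Set.range g ∩ (p ⁻¹ᵁ W₁ : P.Opens)) := by
      rw [Set.inter_comm]
      exact (p ⁻¹ᵁ W₁).isOpen.inter_closure ⟨hz, hzΓ⟩
    refine closure_minimal ?_ isClosed_closure h1
    rintro _ ⟨⟨y, rfl⟩, hy⟩
    have hy' : U.ι y ∈ W₁ := by
      rw [← hg]
      exact hy
    exact ((hηspec y hy').map g.continuous).mem_closure
  have hiso' : ∃ O : P.Opens, (O : Set P) ∩ closure {g η} ∩ p ⁻¹' {p z} = {z} := by
    obtain ⟨O, hO⟩ := hiso
    refine ⟨O, subset_antisymm ?_ ?_⟩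
    · rintro y ⟨⟨h1, h2⟩, h3⟩
      refine hO.le ⟨⟨h1, closure_mono ?_ h2⟩, h3⟩
      rintro _ rfl
      exact ⟨η, rfl⟩
    · rintro _ rfl
      exact ⟨⟨(hO.ge rfl).1.1, hηz.mem_closure⟩, rfl⟩
  obtain ⟨V, hV, v, α, hVW, hvp, hvz, hα, hαv⟩ :=
    exists_extension_generic p g hg W₁ η hη z hz hηz hx hiso'
  refine ⟨V, hV, v, hvp, hvz, ?_⟩
  have hred : IsReduced ((U ⊓ V : X.Opens) : Scheme.{u}) :=
    isReduced_of_isOpenImmersion (X.homOfLE (inf_le_right.trans hVW : U ⊓ V ≤ W₁))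
  have hrange : Set.range ((U : Scheme.{u}).fromSpecStalk η ≫ U.ι) ⊆
      Set.range (U ⊓ V : X.Opens).ι := by
    rintro _ ⟨y, rfl⟩
    rw [Scheme.Opens.range_ι]
    refine ⟨?_, ?_⟩
    · rw [Scheme.Hom.comp_apply]
      exact (((U : Scheme.{u}).fromSpecStalk η) y).2
    · rw [← hα, Scheme.Hom.comp_apply]
      exact (α y).2
  let ι := IsOpenImmersion.lift (U ⊓ V : X.Opens).ι ((U : Scheme.{u}).fromSpecStalk η ≫ U.ι) hrange
  have hι : ι ≫ (U ⊓ V : X.Opens).ι = (U : Scheme.{u}).fromSpecStalk η ≫ U.ι :=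
    IsOpenImmersion.lift_fac ..
  have hιU : ι ≫ X.homOfLE (inf_le_left : U ⊓ V ≤ U) = (U : Scheme.{u}).fromSpecStalk η := by
    rw [← cancel_mono U.ι, Category.assoc, Scheme.homOfLE_ι, hι]
  have hιV : ι ≫ X.homOfLE (inf_le_right : U ⊓ V ≤ V) = α := by
    rw [← cancel_mono V.ι, Category.assoc, Scheme.homOfLE_ι, hι, hα]
  have hdom : IsDominant ι := by
    constructor
    rw [denseRange_iff_closure_range, ← Set.univ_subset_iff]
    intro y _
    have h1 : ι (IsLocalRing.closedPoint _) ⤳ y := by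
      rw [← (U ⊓ V : X.Opens).ι.isOpenEmbedding.toIsInducing.specializes_iff]
      have h2 : (U ⊓ V : X.Opens).ι (ι (IsLocalRing.closedPoint _)) = U.ι η := by
        refine (congr($hι (IsLocalRing.closedPoint _))).trans ?_
        exact congrArg U.ι Scheme.fromSpecStalk_closedPoint
      rw [h2, ← hη]
      exact hspec _ (hVW y.2.2)
    exact closure_mono (Set.singleton_subset_iff.mpr (Set.mem_range_self _)) h1.mem_closure
  refine ext_of_isDominant_of_isSeparated p ?_ ι ?_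
  · rw [Category.assoc, Category.assoc, hvp, hg, Scheme.homOfLE_ι, Scheme.homOfLE_ι]
  · rw [reassoc_of% hιU, reassoc_of% hιV, hαv]

end Groth.Agent.Ega4late.H530.SectionExtend
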