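import Groth.Agent.Ega4late.H530.NormalZMT
import Mathlib.AlgebraicGeometry.FunctionField
import Mathlib.AlgebraicGeometry.Morphisms.FiniteType
import Mathlib.AlgebraicGeometry.Stalk

/-!
# Sections over an open subset whose closure has an isolated point in a fibre over a normal point

`p : P ⟶ X` locally of finite type, `g : U ⟶ P` a section of `p` over an open `U` of `X`, `η` a point
of `U` which is the generic point of an integral open `W₁ ⊆ X`, `z` a point of `P` with `g η ⤳ z`,
`p z ∈ W₁`, isolated in `closure {g η} ∩ p ⁻¹ {p z}`, and such that `𝒪_{X, p z}` is integrally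
closed. Then `𝒪_{P, z} → 𝒪_{P, g η} → 𝒪_{U, η}` factors through `𝒪_{X, p z}`.
-/

set_option autoImplicit false

universe u

open CategoryTheory CategoryTheory.Limits AlgebraicGeometry TopologicalSpace

namespace Groth.Agent.Ega4late.H530.StalkSection

/-- On an integral open `W` of `X`, the map from the local ring at a point of `W` to the local ring at
the generic point of `W` is injective, and every element of the latter is a fraction. -/
theorem stalkSpecializes_fraction {X : Scheme.{u}} (W : X.Opens) [IsIntegral (W : Scheme.{u})]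
    (x : X) (hx : x ∈ W) (η : X) (hη : W.ι (genericPoint (W : Scheme.{u})) = η) (h : η ⤳ x) :
    Function.Injective (X.presheaf.stalkSpecializes h).hom ∧
      ∀ k : X.presheaf.stalk η, ∃ a s : X.presheaf.stalk x, s ≠ 0 ∧
        (X.presheaf.stalkSpecializes h).hom s * k = (X.presheaf.stalkSpecializes h).hom a := by
  subst hη
  obtain ⟨x₁, rfl⟩ : ∃ x₁ : (W : Scheme.{u}), W.ι x₁ = x := ⟨⟨x, hx⟩, rfl⟩
  let η₁ : (W : Scheme.{u}) := genericPoint (W : Scheme.{u})
  have h₁ : η₁ ⤳ x₁ := (genericPoint_spec (W : Scheme.{u})).specializes trivial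
  have comm : X.presheaf.stalkSpecializes h ≫ W.ι.stalkMap η₁ =
      W.ι.stalkMap x₁ ≫ (W : Scheme.{u}).presheaf.stalkSpecializes h₁ :=
    Scheme.Hom.stalkSpecializes_stalkMap W.ι η₁ x₁ h₁
  have comm' : ∀ a : X.presheaf.stalk (W.ι x₁), (W.ι.stalkMap η₁).hom ((X.presheaf.stalkSpecializes h).hom a) =
      ((W : Scheme.{u}).presheaf.stalkSpecializes h₁).hom ((W.ι.stalkMap x₁).hom a) := fun a ↦
    congr($comm a)
  have hinj : Function.Injective ((W : Scheme.{u}).presheaf.stalkSpecializes h₁).hom :=
    IsFractionRing.injective ((W : Scheme.{u}).presheaf.stalk x₁) (W : Scheme.{u}).functionField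
  have bx : Function.Bijective (W.ι.stalkMap x₁).hom := ConcreteCategory.bijective_of_isIso _
  have bη : Function.Bijective (W.ι.stalkMap η₁).hom := ConcreteCategory.bijective_of_isIso _
  refine ⟨fun a b hab ↦ bx.1 (hinj ?_), fun k ↦ ?_⟩
  · rw [← comm', ← comm', hab]
  · obtain ⟨⟨a, s⟩, hs⟩ := IsLocalization.surj
      (nonZeroDivisors ((W : Scheme.{u}).presheaf.stalk x₁)) ((W.ι.stalkMap η₁).hom k)
    obtain ⟨a₀, ha₀⟩ := bx.2 a
    obtain ⟨s₀, hs₀⟩ := bx.2 s
    refine ⟨a₀, s₀, ?_, bη.1 ?_⟩
    · rintro rfl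
      rw [map_zero] at hs₀
      exact nonZeroDivisors.ne_zero s.2 hs₀.symm
    · rw [map_mul, comm', comm', ha₀, hs₀, mul_comm]
      exact hs

end Groth.Agent.Ega4late.H530.StalkSection
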